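import Mathlib
import Cfsg.Prelude.Def_Classical

set_option autoImplicit false

namespace Cfsg.Agent.Lib.Helper4.Syl8

/-- [KER] -/
theorem range_equiv_of_ker_eq {R A B : Type*} [Group R] [Group A] [Group B] (α : R →* A) (β : R →* B)
    (h : α.ker = β.ker) : Nonempty (↥α.range ≃* ↥β.range) :=
  ⟨(QuotientGroup.quotientKerEquivRange α).symm.trans
    ((QuotientGroup.quotientMulEquivOfEq h).trans (QuotientGroup.quotientKerEquivRange β))⟩

end Cfsg.Agent.Lib.Helper4.Syl8
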