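import Mathlib
import Cfsg.Prelude.Def_Classical
import Cfsg.Agent.Lib.Helper5.SpCenter

set_option autoImplicit false

namespace Cfsg.Agent.Lib.Helper4.Syl8

/-- [CEN] -/
theorem mem_center_sp3 (z : ↥(Matrix.symplecticGroup (Fin 2) (ZMod 3))) :
    z ∈ Subgroup.center ↥(Matrix.symplecticGroup (Fin 2) (ZMod 3)) ↔
      (z : Matrix (Fin 2 ⊕ Fin 2) (Fin 2 ⊕ Fin 2) (ZMod 3)) = 1 ∨
      (z : Matrix (Fin 2 ⊕ Fin 2) (Fin 2 ⊕ Fin 2) (ZMod 3)) = -1 := by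
  constructor
  · intro hz
    obtain ⟨a, ha⟩ := Cfsg.Agent.Lib.Helper5.sp_center_scalar 2 z hz
    have h3 : ∀ a : ZMod 3, a = 0 ∨ a = 1 ∨ a = -1 := by decide
    rcases h3 a with rfl | rfl | rfl
    · exfalso
      have h1 : (z : Matrix (Fin 2 ⊕ Fin 2) (Fin 2 ⊕ Fin 2) (ZMod 3)) *
          ((z⁻¹ : ↥(Matrix.symplecticGroup (Fin 2) (ZMod 3))) :
            Matrix (Fin 2 ⊕ Fin 2) (Fin 2 ⊕ Fin 2) (ZMod 3)) = 1 :=
        congrArg Subtype.val (mul_inv_cancel z)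
      rw [ha, map_zero, zero_mul] at h1
      have h2 := congrFun (congrFun h1 (Sum.inl 0)) (Sum.inl 0)
      simp at h2
    · left
      rw [ha, map_one]
    · right
      rw [ha, map_neg, map_one]
  · intro h
    rw [Subgroup.mem_center_iff]
    intro g
    apply Subtype.ext
    show (g : Matrix (Fin 2 ⊕ Fin 2) (Fin 2 ⊕ Fin 2) (ZMod 3)) * z = z * g
    rcases h with h | h
    · rw [h, mul_one, one_mul]
    · rw [h, mul_neg, neg_mul, mul_one, one_mul]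

end Cfsg.Agent.Lib.Helper4.Syl8
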