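import Mathlib
import Cfsg.Prelude.Def_Classical

set_option autoImplicit false

namespace Cfsg.Agent.Lib.Helper4.Syl8

/-- [CA] -/
theorem card_A8 : Nat.card ↥(alternatingGroup (Fin 8)) = 2 ^ 6 * 315 ∧
    Nat.card (Equiv.Perm (Fin 8)) = 2 ^ 7 * 315 := by
  have h1 : Nat.card (Equiv.Perm (Fin 8)) = 2 ^ 7 * 315 := by
    rw [Nat.card_eq_fintype_card, Fintype.card_perm, Fintype.card_fin]
    decide
  refine ⟨?_, h1⟩
  have h2 := two_mul_card_alternatingGroup (α := Fin 8)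
  rw [← Nat.card_eq_fintype_card, ← Nat.card_eq_fintype_card, h1] at h2
  omega

end Cfsg.Agent.Lib.Helper4.Syl8
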