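import Mathlib
import Cfsg.Prelude.Def_Classical
import Cfsg.Agent.Lib.Helper54.Sp4Iso
import Cfsg.Agent.Lib.Helper54.PSpCongr

set_option autoImplicit false

namespace Cfsg.Agent.Lib.Helper4.Syl8

/-- [CP] -/
theorem exists_psp_equiv (F : Type) [Field F] [Fintype F] (hF : Fintype.card F = 3) :
    Nat.card (Cfsg.PSp 2 F) = 2 ^ 6 * 405 ∧ Nonempty (Cfsg.PSp 2 (ZMod 3) ≃* Cfsg.PSp 2 F) := by
  obtain ⟨e⟩ := Cfsg.Agent.Lib.Helper54.psp_congr_of_card (F := ZMod 3) (K := F)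
    (by rw [ZMod.card 3, hF]) 2
  refine ⟨?_, ⟨e⟩⟩
  rw [← Nat.card_congr e.toEquiv, Cfsg.Agent.Lib.Helper54.W4.card_PSp]
  norm_num

end Cfsg.Agent.Lib.Helper4.Syl8
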